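import Cfsg.Agent.FG3Fitting.Module
import Cfsg.Agent.FG3Gen.Central

/-!
The Fitting subgroup of a maximal solvable subgroup generated by two conjugates centralises the
coprime part of a nilpotent subgroup normalised by it.
-/

set_option autoImplicit false
set_option linter.unusedSectionVars false
set_option linter.style.haveILetI false

namespace Cfsg.Agent.FG3Fitting

open Subgroup
open scoped commutatorElement Pointwise

/-- `A` is maximal among the solvable subgroups `⟨P, bPb⁻¹⟩`, `b` in the subgroup. -/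
def IsMaxPair {G : Type*} [Group G] (P A : Subgroup G) : Prop :=
  (∃ a ∈ A, A = P ⊔ P.map (MulAut.conj a).toMonoidHom) ∧
    ∀ B : Subgroup G, A ≤ B → Group.IsSolvable B →
      (∃ b ∈ B, B = P ⊔ P.map (MulAut.conj b).toMonoidHom) → B = A

/-- The minimal situation. -/
theorem core {G : Type*} [Group G] [Finite G] {p q r : ℕ} [Fact p.Prime] [Fact q.Prime]
    [Fact r.Prime] (hp : 5 ≤ p) (hqr : q ≠ r) {P A Q U : Subgroup G} (hP : Nat.card P = p)
    (hA : Group.IsSolvable A) (hmax : IsMaxPair P A) (hQA : Q ≤ A)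
    (hAQ : A ≤ normalizer (Q : Set G)) (hQ : IsPGroup q Q) (hU : U.Normal) (hUr : IsPGroup r U)
    (htop : A ⊔ U = ⊤) (hfull : ⁅U, Q⁆ = U)
    (hsub : ∀ Y : Subgroup G, Y ≤ U → A ≤ normalizer (Y : Set G) → Y ≠ U → ⁅Y, Q⁆ = ⊥) :
    U = ⊥ := by
  classical
  by_contra hU1
  haveI := hU
  haveI hUnil : Group.IsNilpotent U := hUr.isNilpotent
  set D := ⁅U, U⁆ with hD
  haveI hDn : D.Normal := commutator_normal U U
  have hDU : D ≤ U := commutator_le_self U
  have hcopQU : (Nat.card Q).Coprime (Nat.card U) := by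
    obtain ⟨i, hi⟩ := hQ.exists_card_eq
    obtain ⟨j, hj⟩ := hUr.exists_card_eq
    rw [hi, hj]
    exact Nat.coprime_pow_primes _ _ Fact.out Fact.out hqr
  set π := QuotientGroup.mk' D with hπ
  have hπs : Function.Surjective π := QuotientGroup.mk'_surjective D
  set W := U.map π with hW
  haveI hWn : W.Normal := hU.map π hπs
  set A' := A.map π with hA'
  set Q' := Q.map π with hQ'
  haveI hWc : IsMulCommutative W := by
    refine ⟨⟨?_⟩⟩
    rintro ⟨_, a, ha, rfl⟩ ⟨_, b, hb, rfl⟩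
    refine Subtype.ext ?_
    show π a * π b = π b * π a
    rw [← commutatorElement_eq_one_iff_mul_comm, ← map_commutatorElement, hπ,
      QuotientGroup.mk'_apply, QuotientGroup.eq_one_iff]
    exact commutator_mem_commutator ha hb
  have hcopW : (Nat.card Q').Coprime (Nat.card W) :=
    (hcopQU.coprime_dvd_left (card_map_dvd _ π)).coprime_dvd_right (card_map_dvd _ π)
  have hQW : Q' ≤ normalizer (W : Set _) := le_normalizer_of_normal
  have hfullW : ⁅W, Q'⁆ = W := by rw [hW, hQ', ← map_commutator, hfull]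
  have hCW : W ⊓ centralizer (Q' : Set _) = ⊥ := by
    have h0 := Coprime.centralizer_inf_commutator_eq_bot hQW hcopW
    rw [hfullW] at h0
    rw [eq_bot_iff, ← h0]
    exact le_inf le_rfl inf_le_left
  have hWne : W ≠ ⊥ := by
    intro h
    rw [hW, Subgroup.map_eq_bot_iff, hπ, QuotientGroup.ker_mk'] at h
    exact hU1 (LocalEven.eq_bot_of_le_commutator (S := U) le_rfl h)
  -- proper invariant subgroups of `U` are centralised by `Q`
  have hirr : ∀ Y : Subgroup (G ⧸ D), Y ≤ W → (∀ a ∈ A', ∀ y ∈ Y, a * y * a⁻¹ ∈ Y) →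
      Y = ⊥ ∨ Y = W := by
    intro Y hYW hYA
    rw [or_iff_not_imp_right]
    intro hne
    set Y₀ := Y.comap π ⊓ U with hY₀
    have hY₀Y : Y₀.map π = Y := by
      refine le_antisymm ((map_mono inf_le_left).trans (map_comap_le _ _)) fun y hy => ?_
      obtain ⟨u, hu, rfl⟩ := hYW hy
      exact ⟨u, ⟨hy, hu⟩, rfl⟩
    have hAY : A ≤ normalizer (Y₀ : Set G) := by
      intro a ha
      have key : ∀ b ∈ A, ∀ u ∈ Y₀, b * u * b⁻¹ ∈ Y₀ := fun b hb u hu => by
        refine ⟨?_, hU.conj_mem u hu.2 b⟩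
        show π (b * u * b⁻¹) ∈ Y
        rw [map_mul, map_mul, map_inv]
        exact hYA _ ⟨b, hb, rfl⟩ _ hu.1
      refine mem_normalizer_iff.2 fun u => ⟨key a ha u, fun h => ?_⟩
      simpa [mul_assoc] using key a⁻¹ (inv_mem ha) _ h
    have hYc := hsub Y₀ inf_le_right hAY (fun h => hne (by rw [← hY₀Y, h]))
    rw [eq_bot_iff, ← hY₀Y, ← hCW]
    refine le_inf (map_mono inf_le_right) ?_
    rw [← commutator_eq_bot_iff_le_centralizer, hQ', ← map_commutator, hYc, Subgroup.map_bot]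
  obtain ⟨hWc', r', hr', hWr', hWp'⟩ : IsMulCommutative W ∧ ∃ r' : ℕ, r'.Prime ∧
      (∀ w ∈ W, w ^ r' = 1) ∧ IsPGroup r' W := by
    haveI : Group.IsSolvable W := Group.isSolvable_of_comm fun a b => hWc.is_comm.comm a b
    refine MinNormal.elementary_abelian W hWne fun M hM hMW => hirr M hMW fun a _ y hy => ?_
    exact hM.conj_mem y hy a
  haveI := Fact.mk hr'
  have hdisj : A' ⊓ W = ⊥ := by
    rw [eq_bot_iff, ← hCW]
    rintro _ ⟨⟨a, ha, rfl⟩, ⟨u, hu, hua⟩⟩
    have hau : u⁻¹ * a ∈ U := hDU (QuotientGroup.eq.1 hua)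
    have haU : a ∈ U := by simpa using mul_mem hu hau
    refine ⟨⟨a, haU, rfl⟩, ?_⟩
    rintro _ ⟨g, hg, rfl⟩
    have hc : ⁅a, g⁆ ∈ U ⊓ Q := by
      refine ⟨?_, ?_⟩
      · rw [commutatorElement_def, mul_assoc, mul_assoc, ← mul_assoc g]
        exact U.mul_mem haU (hU.conj_mem _ (inv_mem haU) g)
      · rw [commutatorElement_def]
        exact Q.mul_mem ((mem_normalizer_iff.1 (hAQ ha) g).1 hg) (Q.inv_mem hg)
    rw [inf_eq_bot_of_coprime hcopQU.symm, mem_bot, commutatorElement_eq_one_iff_mul_comm] at hc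
    rw [← map_mul, ← map_mul, hc]
  -- the generator
  obtain ⟨⟨a, haA, haeq⟩, hmaxB⟩ := hmax
  have hP1 : P ≠ ⊥ := fun h => by
    rw [h, card_bot] at hP; exact (Fact.out : p.Prime).one_lt.ne hP
  obtain ⟨x, hxP, hx1⟩ := (bot_or_exists_ne_one P).resolve_left hP1
  have hz : zpowers x = P := by
    refine le_antisymm (zpowers_le.2 hxP) fun y hy => ?_
    obtain ⟨n, hn⟩ := mem_zpowers_iff.1
      (mem_zpowers_of_prime_card hP (g := (⟨x, hxP⟩ : P)) (fun h => hx1 (congrArg Subtype.val h))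
        (g' := ⟨y, hy⟩))
    exact mem_zpowers_iff.2 ⟨n, congrArg Subtype.val hn⟩
  have hxp : x ^ p = 1 := by
    rw [← hP]; exact congrArg Subtype.val (pow_card_eq_one' (x := (⟨x, hxP⟩ : P)))
  have hPA : P ≤ A := le_sup_left.trans haeq.ge
  have hxA : x ∈ A := hPA hxP
  set x' : A' := ⟨π x, x, hxA, rfl⟩ with hx'
  have hgen : normalClosure {x'} = ⊤ := by
    have hle : A' ≤ (normalClosure {x'}).map A'.subtype := by
      have hAeq : A' = zpowers (π x) ⊔ zpowers (π (a * x * a⁻¹)) := by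
        rw [hA', haeq, Subgroup.map_sup, ← hz, MonoidHom.map_zpowers, MonoidHom.map_zpowers,
          MonoidHom.map_zpowers]
        rfl
      refine hAeq.le.trans (sup_le (zpowers_le.2 ?_) (zpowers_le.2 ?_))
      · exact ⟨x', subset_normalClosure (Set.mem_singleton _), rfl⟩
      refine ⟨⟨π a, a, haA, rfl⟩ * x' * (⟨π a, a, haA, rfl⟩ : A')⁻¹,
        normalClosure_normal.conj_mem _ (subset_normalClosure (Set.mem_singleton _)) _, ?_⟩
      show π a * π x * (π a)⁻¹ = π (a * x * a⁻¹)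
      rw [map_mul, map_mul, map_inv]
    refine eq_top_iff.2 fun y _ => ?_
    obtain ⟨z, hz', hzy⟩ := hle y.2
    rwa [← Subtype.ext hzy]
  have hA'W : A' ≤ normalizer (W : Set _) := le_normalizer_of_normal
  have hxW : (x' : G ⧸ D) ∉ centralizer (W : Set _) := by
    intro hc
    have htop' : (centralizer (W : Set _)).subgroupOf A' = ⊤ := by
      refine top_le_iff.1 (hgen ▸ normalClosure_le_normal (Set.singleton_subset_iff.2 hc))
    have hle : Q' ≤ centralizer (W : Set _) := (map_mono hQA).trans (subgroupOf_eq_top.1 htop')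
    apply hWne
    rw [← hfullW, commutator_eq_bot_iff_le_centralizer]
    exact le_centralizer_iff.1 hle
  have hbound := fixed_card_lt (r := r') hp A' W hA'W
    (haveI := hA; Group.isSolvable_of_surjective (π.subgroupMap_surjective A)) hWc' hWr' hirr x'
    (show (π x) ^ p = 1 by rw [← map_pow, hxp, map_one]) hgen hxW
  have hQn : A' ≤ normalizer (Q' : Set _) := (map_mono hAQ).trans (le_normalizer_map π)
  have hA'Wtop : A' ⊔ W = ⊤ := by
    rw [hA', hW, ← Subgroup.map_sup, htop, map_top_of_surjective π hπs]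
  have hNQ : normalizer (Q' : Set (G ⧸ D)) ≤ A' := by
    intro g hg
    obtain ⟨a₀, ha₀, w, hw, rfl⟩ := Coprime.exists_mul_of_mem_sup hA'W (hA'Wtop ▸ mem_top g)
    have hwn : w ∈ normalizer (Q' : Set (G ⧸ D)) := by
      have := mul_mem (inv_mem (hQn ha₀)) hg
      rwa [inv_mul_cancel_left] at this
    have hw1 : w ∈ W ⊓ centralizer (Q' : Set _) := by
      refine ⟨hw, fun g hg' => ?_⟩
      have hc : ⁅w, g⁆ ∈ W ⊓ Q' := by
        refine ⟨?_, ?_⟩
        · rw [commutatorElement_def, mul_assoc, mul_assoc, ← mul_assoc g]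
          exact W.mul_mem hw (hWn.conj_mem _ (inv_mem hw) g)
        · rw [commutatorElement_def]
          exact Q'.mul_mem ((mem_normalizer_iff.1 hwn g).1 hg') (Q'.inv_mem hg')
      rw [inf_eq_bot_of_coprime hcopW.symm, mem_bot, commutatorElement_eq_one_iff_mul_comm] at hc
      exact hc.symm
    rw [hCW, mem_bot] at hw1
    rw [hw1, mul_one]
    exact ha₀
  -- every element of `W` is a product of two fixed elements
  set C₁ := W ⊓ centralizer ({π x} : Set (G ⧸ D)) with hC₁
  set C₂ := W ⊓ centralizer ({π (a * x * a⁻¹)} : Set (G ⧸ D)) with hC₂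
  have hsur : ∀ u ∈ U, ∃ w ∈ C₁, ∃ t ∈ C₂, π (a * u * a⁻¹) = w * t := by
    intro u hu
    set b := a * u with hb
    set B := P ⊔ P.map (MulAut.conj b).toMonoidHom with hB
    have hBU : B ⊔ U = ⊤ := by
      rw [eq_top_iff, ← htop]
      refine sup_le ?_ le_sup_right
      rw [haeq, sup_le_iff]
      refine ⟨le_sup_of_le_left le_sup_left, ?_⟩
      rintro _ ⟨g, hg, rfl⟩
      have h1 : b * g * b⁻¹ ∈ B ⊔ U := mem_sup_left (mem_sup_right ⟨g, hg, rfl⟩)
      have h2 : a * (g * u * g⁻¹ * u⁻¹) * a⁻¹ ∈ U :=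
        hU.conj_mem _ (mul_mem (hU.conj_mem u hu g) (inv_mem hu)) a
      have h3 := mul_mem (mem_sup_right h2 : _ ∈ B ⊔ U) h1
      show a * g * a⁻¹ ∈ B ⊔ U
      convert h3 using 1
      rw [hb]; group
    set B' := B.map π with hB'
    have hB'W : B' ⊔ W = ⊤ := by
      rw [hB', hW, ← Subgroup.map_sup, hBU, map_top_of_surjective π hπs]
    have hBint : B' ⊓ W = ⊥ := by
      refine (hirr _ inf_le_right fun a₀ _ y hy => ?_).resolve_right fun he => ?_
      · refine ⟨?_, hWn.conj_mem y hy.2 a₀⟩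
        obtain ⟨b₀, hb₀, w, hw, rfl⟩ :=
          Coprime.exists_mul_of_mem_sup (le_normalizer_of_normal : B' ≤ normalizer (W : Set _))
            (hB'W ▸ mem_top a₀)
        have hyw : w * y * w⁻¹ = y := by
          rw [show w * y = y * w from congrArg Subtype.val
            (hWc.is_comm.comm (⟨w, hw⟩ : W) ⟨y, hy.2⟩), mul_inv_cancel_right]
        show b₀ * w * y * (b₀ * w)⁻¹ ∈ B'
        rw [show b₀ * w * y * (b₀ * w)⁻¹ = b₀ * (w * y * w⁻¹) * b₀⁻¹ by group, hyw]
        exact B'.mul_mem (B'.mul_mem hb₀ hy.1) (B'.inv_mem hb₀)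
      -- then `B = G`, against maximality
      have hUB : U ≤ B := by
        have h1 : B ⊓ U ⊔ D = U := by
          refine le_antisymm (sup_le inf_le_right hDU) fun v hv => ?_
          have hv' : π v ∈ B' ⊓ W := he.symm ▸ (⟨v, hv, rfl⟩ : π v ∈ W)
          obtain ⟨b₀, hb₀, hbv⟩ := hv'.1
          have hd : b₀⁻¹ * v ∈ D := QuotientGroup.eq.1 hbv
          have hb₀U : b₀ ∈ U := by
            have := mul_mem hv (inv_mem (hDU hd)); simpa using this
          have := mul_mem (mem_sup_left (⟨hb₀, hb₀U⟩ : b₀ ∈ B ⊓ U) : b₀ ∈ B ⊓ U ⊔ D)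
            (mem_sup_right hd)
          rwa [mul_inv_cancel_left] at this
        by_contra hne
        exact FG3Gen.sup_derived_ne (H := U) inf_le_right
          (fun h => hne (h ▸ inf_le_left)) h1
      have hBtop : B = ⊤ := by rw [← hBU, sup_eq_left.2 hUB]
      haveI : Group.IsSolvable A := hA
      haveI : Group.IsSolvable U := inferInstance
      have hGs : Group.IsSolvable G := by
        haveI : Group.IsSolvable (G ⧸ U) := by
          refine Group.isSolvable_of_surjective (f := (QuotientGroup.mk' U).comp A.subtype) ?_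
          intro y
          obtain ⟨g, rfl⟩ := QuotientGroup.mk'_surjective U y
          obtain ⟨a₀, ha₀, v, hv, rfl⟩ :=
            Coprime.exists_mul_of_mem_sup (le_normalizer_of_normal : A ≤ normalizer (U : Set G))
              (htop ▸ mem_top g)
          exact ⟨⟨a₀, ha₀⟩, QuotientGroup.eq.2 (by simpa using hv)⟩
        exact Group.isSolvable_of_ker_le_range U.subtype (QuotientGroup.mk' U) (by simp)
      haveI := hGs
      have hBA : B = A := hmaxB B (hBtop ▸ le_top) inferInstance ⟨b, hBtop ▸ mem_top b, rfl⟩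
      have hUA : U ≤ A := hBA ▸ hUB
      exact hWne (le_bot_iff.1 (hdisj ▸ le_inf (map_mono hUA) le_rfl))
    -- `B'` is conjugate to `A'`
    set K := Q' ⊔ W with hK
    haveI hKn : K.Normal := by
      refine normalizer_eq_top_iff.1 (top_le_iff.1 (hA'Wtop ▸ sup_le ?_ ?_))
      · exact (le_inf hQn hA'W).trans (normalizer_inf_normalizer_le_normalizer_sup _ _)
      · exact le_sup_right.trans le_normalizer
    have hcK : Nat.card K = Nat.card Q' * Nat.card W :=
      Coprime.card_sup_of_disjoint hQW (inf_eq_bot_of_coprime hcopW)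
    set S := B' ⊓ K with hS
    have hSK : S ≤ K := inf_le_right
    have hSW : S ⊔ W = K := by
      refine le_antisymm (sup_le hSK le_sup_right) fun k hk => ?_
      obtain ⟨b₀, hb₀, w, hw, rfl⟩ :=
        Coprime.exists_mul_of_mem_sup (le_normalizer_of_normal : B' ≤ normalizer (W : Set _))
          (hB'W ▸ mem_top k)
      refine mul_mem (mem_sup_left ⟨hb₀, ?_⟩) (mem_sup_right hw)
      have := mul_mem hk (inv_mem (mem_sup_right hw : w ∈ K))
      rwa [mul_inv_cancel_right] at this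
    have hcS : Nat.card S = Nat.card Q' := by
      have h := Coprime.card_sup_of_disjoint (A := S) (K := W) le_normalizer_of_normal
        (eq_bot_iff.2 (hBint ▸ inf_le_inf inf_le_left le_rfl))
      rw [hSW, hcK] at h
      exact (Nat.eq_of_mul_eq_mul_right Nat.card_pos h).symm
    obtain ⟨i, hi⟩ := (hQ.map π).exists_card_eq
    have hfac : (Nat.card K).factorization q = i := by
      rw [hcK, hi, Nat.factorization_mul (pow_ne_zero _ (Fact.out : q.Prime).ne_zero) Nat.card_pos.ne',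
        Finsupp.add_apply, (Fact.out : q.Prime).factorization_pow, Finsupp.single_eq_same,
        Nat.factorization_eq_zero_of_not_dvd fun hdv => hqr ?_, add_zero]
      obtain ⟨j, hj⟩ := hUr.exists_card_eq
      exact (Nat.prime_dvd_prime_iff_eq Fact.out Fact.out).1
        ((Fact.out : q.Prime).dvd_of_dvd_pow (hj ▸ hdv.trans (card_map_dvd _ π)))
    obtain ⟨R₁, hR₁⟩ := Coprime.exists_sylow_map_eq (p := q) (le_sup_left : Q' ≤ K)
      (by rw [hfac]; exact hi)
    obtain ⟨R₂, hR₂⟩ := Coprime.exists_sylow_map_eq (p := q) hSK (by rw [hfac, hcS]; exact hi)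
    obtain ⟨k, hk, hkQ⟩ := Coprime.sylow_map_conj R₁ R₂
    rw [hR₁, hR₂] at hkQ
    -- `k` may be taken in `W`
    obtain ⟨q₀, hq₀, w₀, hw₀, hkw⟩ := Coprime.exists_mul_of_mem_sup hQW hk
    set w := q₀ * w₀ * q₀⁻¹ with hw
    have hwW : w ∈ W := hWn.conj_mem _ hw₀ q₀
    have hkw' : k = w * q₀ := by rw [hkw, hw]; group
    rw [hkw', ← Coprime.conj_smul_conj_smul,
      Coprime.conj_smul_eq_self_iff.2 (le_normalizer hq₀)] at hkQ
    have hin : ∀ g ∈ B', w⁻¹ * g * w ∈ A' := by
      intro g hg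
      refine hNQ (Coprime.conj_smul_eq_self_iff.1 ?_)
      have hgK : g ∈ normalizer (K : Set (G ⧸ D)) :=
        (le_normalizer_of_normal : (⊤ : Subgroup (G ⧸ D)) ≤ normalizer (K : Set (G ⧸ D))) (mem_top g)
      have hgS : MulAut.conj g • S = S := Coprime.conj_smul_eq_self_iff.2
        (inf_normalizer_le_normalizer_inf ⟨le_normalizer hg, hgK⟩)
      rw [show w⁻¹ * g * w = w⁻¹ * (g * w) by group, ← Coprime.conj_smul_conj_smul,
        ← Coprime.conj_smul_conj_smul, hkQ, hgS, ← hkQ, Coprime.conj_smul_conj_smul]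
      simp
    have hfix : ∀ g ∈ A', ∀ y ∈ W, y⁻¹ * g * y ∈ A' → y ∈ centralizer ({g} : Set (G ⧸ D)) := by
      intro g hg y hy h
      have hm : g⁻¹ * (y⁻¹ * g * y) ∈ A' ⊓ W := by
        refine ⟨A'.mul_mem (A'.inv_mem hg) h, ?_⟩
        show g⁻¹ * (y⁻¹ * g * y) ∈ W
        rw [show g⁻¹ * (y⁻¹ * g * y) = (g⁻¹ * y⁻¹ * g⁻¹⁻¹) * y by group]
        exact mul_mem (hWn.conj_mem _ (inv_mem hy) _) hy
      rw [hdisj, mem_bot] at hm
      refine mem_centralizer_singleton_iff.2 ?_
      have h' : y⁻¹ * g * y = g := (inv_mul_eq_one.1 hm).symm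
      conv_lhs => rw [← h']
      group
    have hw1 : w ∈ centralizer ({π x} : Set (G ⧸ D)) :=
      hfix _ ⟨x, hxA, rfl⟩ w hwW (hin _ ⟨x, mem_sup_left hxP, rfl⟩)
    set t := w⁻¹ * π (a * u * a⁻¹) with ht
    have htW : t ∈ W := mul_mem (inv_mem hwW) ⟨_, hU.conj_mem u hu a, rfl⟩
    have hyA : a * x * a⁻¹ ∈ A := mul_mem (mul_mem haA hxA) (inv_mem haA)
    have h2 := hin (π (b * x * b⁻¹)) ⟨_, mem_sup_right ⟨x, hxP, rfl⟩, rfl⟩
    have ht2 : t⁻¹ ∈ centralizer ({π (a * x * a⁻¹)} : Set (G ⧸ D)) := by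
      refine hfix _ ⟨_, hyA, rfl⟩ _ (inv_mem htW) ?_
      convert h2 using 1
      rw [ht, hb]
      simp only [map_mul, map_inv]
      group
    exact ⟨w, ⟨hwW, hw1⟩, t, ⟨htW, (centralizer _).inv_mem_iff.1 ht2⟩, by rw [ht, mul_inv_cancel_left]⟩
  -- counting
  have hcard : Nat.card C₂ = Nat.card C₁ := by
    refine (Nat.card_eq_of_bijective (fun c : C₁ => (⟨π a * c * (π a)⁻¹, hWn.conj_mem _ c.2.1 _,
      ?_⟩ : C₂)) ⟨?_, ?_⟩).symm
    · refine mem_centralizer_singleton_iff.2 ?_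
      have hc := mem_centralizer_singleton_iff.1 c.2.2
      simp only [map_mul, map_inv]
      calc π a * c * (π a)⁻¹ * (π a * π x * (π a)⁻¹) = π a * (c * π x) * (π a)⁻¹ := by group
        _ = π a * (π x * c) * (π a)⁻¹ := by rw [hc]
        _ = _ := by group
    · intro c d hcd
      exact Subtype.ext (mul_left_cancel (mul_right_cancel (congrArg Subtype.val hcd)))
    · rintro ⟨y, hy, hyc⟩
      refine ⟨⟨(π a)⁻¹ * y * (π a)⁻¹⁻¹, hWn.conj_mem _ hy _, mem_centralizer_singleton_iff.2 ?_⟩,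
        Subtype.ext (by simp [mul_assoc])⟩
      have hc := mem_centralizer_singleton_iff.1 hyc
      simp only [map_mul, map_inv] at hc
      calc (π a)⁻¹ * y * (π a)⁻¹⁻¹ * π x
          = (π a)⁻¹ * (y * (π a * π x * (π a)⁻¹)) * π a := by group
        _ = (π a)⁻¹ * ((π a * π x * (π a)⁻¹) * y) * π a := by rw [hc]
        _ = _ := by group
  let F : C₁ × C₂ → W := fun z => ⟨z.1 * z.2, mul_mem z.1.2.1 z.2.2.1⟩
  have hF : Function.Surjective F := by
    rintro ⟨v, hv⟩
    obtain ⟨u, hu, rfl⟩ := hv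
    obtain ⟨w, hw, t, ht, e⟩ := hsur (a⁻¹ * u * a) (by simpa using hU.conj_mem u hu a⁻¹)
    refine ⟨(⟨w, hw⟩, ⟨t, ht⟩), Subtype.ext ?_⟩
    show w * t = π u
    rw [← e]; congr 1; group
  have h1 := Nat.card_le_card_of_surjective F hF
  rw [Nat.card_prod, hcard, ← sq] at h1
  exact absurd (lt_of_le_of_lt h1 hbound) (lt_irrefl _)

end Cfsg.Agent.FG3Fitting
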