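import Cfsg.Agent.FG3Fitting.Core
import Cfsg.Agent.Cores.Fitting

/-!
The Fitting subgroup of a maximal pair and a nilpotent subgroup normalised by it generate a
nilpotent subgroup.
-/

set_option autoImplicit false
set_option linter.unusedSectionVars false
set_option linter.style.haveILetI false

namespace Cfsg.Agent.FG3Fitting

open Subgroup
open scoped commutatorElement Pointwise

universe u

theorem map_conj {G G' : Type*} [Group G] [Group G'] (f : G →* G') (P : Subgroup G) (b : G) :
    (P.map (MulAut.conj b).toMonoidHom).map f = (P.map f).map (MulAut.conj (f b)).toMonoidHom := by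
  rw [map_map, map_map]
  congr 1
  ext g
  simp

/-- Maximality passes to an intermediate subgroup. -/
theorem IsMaxPair.subgroupOf {G : Type*} [Group G] {P A M : Subgroup G} (h : IsMaxPair P A)
    (hPA : P ≤ A) (hAM : A ≤ M) : IsMaxPair (P.subgroupOf M) (A.subgroupOf M) := by
  obtain ⟨⟨a, ha, hAeq⟩, hmax⟩ := h
  have hPM : P ≤ M := hPA.trans hAM
  have key : ∀ b : M, (P.subgroupOf M ⊔ (P.subgroupOf M).map (MulAut.conj b).toMonoidHom).map M.subtype =
      P ⊔ P.map (MulAut.conj (b : G)).toMonoidHom := by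
    intro b
    rw [Subgroup.map_sup, map_conj, map_subgroupOf_eq_of_le hPM]
    rfl
  refine ⟨⟨⟨a, hAM ha⟩, ha, map_injective M.subtype_injective ?_⟩, ?_⟩
  · rw [key, map_subgroupOf_eq_of_le hAM]; exact hAeq
  · intro B hAB hB hex
    obtain ⟨b, hb, hBeq⟩ := hex
    haveI := hB
    have h1 := hmax (B.map M.subtype)
      ((map_subgroupOf_eq_of_le hAM).symm.le.trans (map_mono hAB))
      (Group.isSolvable_of_surjective (M.subtype.subgroupMap_surjective B))
      ⟨b, ⟨b, hb, rfl⟩, by rw [hBeq, key]⟩
    exact map_injective M.subtype_injective (by rw [h1, map_subgroupOf_eq_of_le hAM])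

theorem coprime_centralizes_aux {p q r : ℕ} [Fact p.Prime] [Fact q.Prime] [Fact r.Prime]
    (hp : 5 ≤ p) (hqr : q ≠ r) : ∀ (n : ℕ) (G : Type u) [Group G] [Finite G]
      (P A Q U : Subgroup G), Nat.card U ≤ n → Nat.card P = p → Group.IsSolvable A →
      IsMaxPair P A → Q ≤ A → A ≤ normalizer (Q : Set G) → IsPGroup q Q →
      A ≤ normalizer (U : Set G) → IsPGroup r U → ⁅U, Q⁆ = ⊥ := by
  intro n
  induction n using Nat.strong_induction_on with
  | _ n ih =>
  intro G _ _ P A Q U hn hP hA hmax hQA hAQ hQ hAU hU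
  have hQU : Q ≤ normalizer (U : Set G) := hQA.trans hAU
  have hle : ⁅U, Q⁆ ≤ U := Coprime.commutator_le_of_le_normalizer hQU
  have hlt : ∀ Y : Subgroup G, Y ≤ U → Y ≠ U → Nat.card Y < n := fun Y hY hne =>
    lt_of_lt_of_le (lt_of_le_of_ne (card_le_of_le hY) fun he =>
      hne (eq_of_le_of_card_ge hY he.ge)) hn
  have hcop : (Nat.card Q).Coprime (Nat.card U) := by
    obtain ⟨i, hi⟩ := hQ.exists_card_eq
    obtain ⟨j, hj⟩ := hU.exists_card_eq
    rw [hi, hj]
    exact Nat.coprime_pow_primes _ _ Fact.out Fact.out hqr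
  by_cases hfull : ⁅U, Q⁆ = U
  swap
  · have h1 := ih _ (hlt _ hle hfull) G P A Q ⁅U, Q⁆ le_rfl hP hA hmax hQA hAQ hQ
      ((le_inf hAU hAQ).trans (Coprime.normalizer_inf_le_normalizer_commutator U Q)) (hU.to_le hle)
    exact commutator_eq_bot_iff_le_centralizer.2
      (le_centralizer_iff.1 (Coprime.le_centralizer_of_commutator_commutator_eq_bot hQU hcop h1))
  obtain ⟨a, ha, hAeq⟩ := hmax.1
  have hPA : P ≤ A := le_sup_left.trans hAeq.ge
  set M := A ⊔ U with hM
  have hAM : A ≤ M := le_sup_left
  have hUM : U ≤ M := le_sup_right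
  have hQM : Q ≤ M := hQA.trans hAM
  haveI : (U.subgroupOf M).Normal :=
    (normal_subgroupOf_iff_le_normalizer hUM).2 (sup_le hAU le_normalizer)
  have eA := map_subgroupOf_eq_of_le hAM
  have eU := map_subgroupOf_eq_of_le hUM
  have eQ := map_subgroupOf_eq_of_le hQM
  have hres := core (G := M) (p := p) (q := q) (r := r) hp hqr (P := P.subgroupOf M)
    (A := A.subgroupOf M) (Q := Q.subgroupOf M) (U := U.subgroupOf M)
    (by rw [Nat.card_congr (subgroupOfEquivOfLe (hPA.trans hAM)).toEquiv, hP])
    (haveI := hA; Group.isSolvable_of_isSolvable_injective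
      (f := (subgroupOfEquivOfLe hAM).toMonoidHom) (subgroupOfEquivOfLe hAM).injective)
    (hmax.subgroupOf hPA hAM) (fun y hy => hQA hy)
    (fun y hy => by
      refine mem_normalizer_iff.2 fun z => ?_
      exact mem_normalizer_iff.1 (hAQ hy) (z : G))
    (hQ.of_equiv (subgroupOfEquivOfLe hQM).symm) inferInstance
    (hU.of_equiv (subgroupOfEquivOfLe hUM).symm)
    (map_injective M.subtype_injective (by
      rw [Subgroup.map_sup, eA, eU, ← MonoidHom.range_eq_map, range_subtype]))
    (map_injective M.subtype_injective (by rw [map_commutator, eU, eQ, hfull]))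
    (fun Y hY hAY hne => by
      have hlt' : Nat.card (Y.map M.subtype) < n := by
        refine hlt _ ((map_mono hY).trans eU.le) fun h => hne ?_
        exact map_injective M.subtype_injective (h.trans eU.symm)
      have h1 := ih _ hlt' G P A Q (Y.map M.subtype) le_rfl hP hA hmax hQA hAQ hQ
        (eA.symm.le.trans ((map_mono hAY).trans (le_normalizer_map _)))
        (hU.to_le ((map_mono hY).trans eU.le))
      refine map_injective M.subtype_injective ?_
      rw [map_commutator, eQ, h1, Subgroup.map_bot])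
  have hU' : U = ⊥ := by rw [← eU, hres, Subgroup.map_bot]
  rw [hU', commutator_bot_left]

theorem coprime_centralizes {G : Type u} [Group G] [Finite G] {p q r : ℕ} [Fact p.Prime]
    [Fact q.Prime] [Fact r.Prime] (hp : 5 ≤ p) (hqr : q ≠ r) {P A Q U : Subgroup G}
    (hP : Nat.card P = p) (hA : Group.IsSolvable A) (hmax : IsMaxPair P A) (hQA : Q ≤ A)
    (hAQ : A ≤ normalizer (Q : Set G)) (hQ : IsPGroup q Q) (hAU : A ≤ normalizer (U : Set G))
    (hU : IsPGroup r U) : Q ≤ centralizer (U : Set G) :=
  le_centralizer_iff.1 (commutator_eq_bot_iff_le_centralizer.1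
    (coprime_centralizes_aux hp hqr _ G P A Q U le_rfl hP hA hmax hQA hAQ hQ hAU hU))

/-- `O_q(K)` as a subgroup of the ambient group. -/
abbrev Op {G : Type*} [Group G] (q : ℕ) (K : Subgroup G) : Subgroup G :=
  (Cfsg.pCore q ↥K).map K.subtype

theorem normalizer_le_normalizer_Op {G : Type*} [Group G] [Finite G] (q : ℕ) (K : Subgroup G) :
    normalizer (K : Set G) ≤ normalizer (Op q K : Set G) :=
  Coprime.normalizer_le_normalizer_map_characteristic K _

theorem Op_commute {G : Type*} [Group G] [Finite G] {q r : ℕ} [Fact q.Prime] [Fact r.Prime]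
    (hqr : q ≠ r) (K : Subgroup G) : Op q K ≤ centralizer (Op r K : Set G) := by
  have hd : Cfsg.pCore q ↥K ⊓ Cfsg.pCore r ↥K = ⊥ :=
    disjoint_iff.1 (IsPGroup.disjoint_of_ne q r hqr _ _ Cores.pCore_isPGroup Cores.pCore_isPGroup)
  rintro _ ⟨y, hy, rfl⟩ _ ⟨z, hz, rfl⟩
  have h := Subgroup.commute_of_normal_of_disjoint _ _ inferInstance inferInstance
    (disjoint_iff.2 hd) y z hy hz
  show (K.subtype z : G) * K.subtype y = K.subtype y * K.subtype z
  rw [← map_mul, ← map_mul, h.eq]

theorem fitting_le_iSup {G : Type*} [Group G] [Finite G] (K : Subgroup G) :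
    (Cfsg.fittingSubgroup ↥K).map K.subtype ≤ ⨆ q : Nat.Primes, Op (q : ℕ) K := by
  rw [Cores.fittingSubgroup_eq_iSup_pCore, Subgroup.map_iSup]

/-- **Main result.** -/
theorem fitting_sup_nilpotent {G : Type u} [Group G] [Finite G] {p : ℕ} [Fact p.Prime]
    (hp : 5 ≤ p) {P A : Subgroup G} (hP : Nat.card P = p) (hA : Group.IsSolvable A)
    (hmax : IsMaxPair P A) {V : Subgroup G} (hV : Group.IsNilpotent V)
    (hAV : A ≤ normalizer (V : Set G)) :
    Group.IsNilpotent ↥((Cfsg.fittingSubgroup ↥A).map A.subtype ⊔ V) := by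
  set X := (⨆ q : Nat.Primes, Op (q : ℕ) A) ⊔ (⨆ q : Nat.Primes, Op (q : ℕ) V) with hX
  have hVX : V ≤ ⨆ q : Nat.Primes, Op (q : ℕ) V := by
    haveI := hV
    refine le_trans ?_ (fitting_le_iSup V)
    rw [(Cores.fittingSubgroup_eq_top_iff).2 hV, ← MonoidHom.range_eq_map, range_subtype]
  have hle : (Cfsg.fittingSubgroup ↥A).map A.subtype ⊔ V ≤ X :=
    sup_le_sup (fitting_le_iSup A) hVX
  -- each prime part is normal in `X`
  have hAV' : ∀ q : ℕ, A ≤ normalizer (Op q V : Set G) := fun q =>
    hAV.trans (normalizer_le_normalizer_Op q V)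
  have hOA : ∀ q : ℕ, Op q A ≤ A := fun q => map_subtype_le _
  have hcross : ∀ q r : Nat.Primes, q ≠ r → Op (q : ℕ) A ≤ centralizer (Op (r : ℕ) V : Set G) := by
    intro q r hne
    haveI := Fact.mk q.2
    haveI := Fact.mk r.2
    exact coprime_centralizes (q := (q : ℕ)) (r := (r : ℕ)) hp (fun h => hne (Subtype.ext h)) hP hA
      hmax (hOA _) (le_normalizer.trans (normalizer_le_normalizer_Op _ A))
      (Cores.pCore_isPGroup.map _) (hAV' _) (Cores.pCore_isPGroup.map _)
  let N : Nat.Primes → Subgroup G := fun s => Op (s : ℕ) A ⊔ Op (s : ℕ) V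
  have hNn : ∀ s, X ≤ normalizer (N s : Set G) := by
    intro s
    refine sup_le (iSup_le fun t => ?_) (iSup_le fun t => ?_)
    · rcases eq_or_ne t s with rfl | hne
      · exact le_sup_left.trans le_normalizer
      · exact (le_inf ((hOA _).trans (le_normalizer.trans (normalizer_le_normalizer_Op _ A)))
          ((hOA _).trans (hAV' _))).trans (normalizer_inf_normalizer_le_normalizer_sup _ _)
    · rcases eq_or_ne t s with rfl | hne
      · exact le_sup_right.trans le_normalizer
      · haveI := Fact.mk t.2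
        haveI := Fact.mk s.2
        refine (le_inf ?_ ?_).trans (normalizer_inf_normalizer_le_normalizer_sup _ _)
        · exact (le_centralizer_iff.1 (hcross s t hne.symm)).trans
            (Coprime.centralizer_le_normalizer' _)
        · exact (Op_commute (fun h => hne (Subtype.ext h)) V).trans
            (Coprime.centralizer_le_normalizer' _)
  have hNp : ∀ s : Nat.Primes, IsPGroup (s : ℕ) (N s) := by
    intro s
    haveI := Fact.mk s.2
    exact IsPGroup.to_sup_of_normal_right' (Cores.pCore_isPGroup.map _) (Cores.pCore_isPGroup.map _)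
      ((hOA _).trans (hAV' _))
  have hXF : X ≤ (Cfsg.fittingSubgroup ↥X).map X.subtype := by
    have hN : ∀ s, N s ≤ (Cfsg.fittingSubgroup ↥X).map X.subtype := by
      intro s
      have hNX : N s ≤ X := sup_le
        (le_sup_of_le_left (le_iSup (fun q : Nat.Primes => Op (q : ℕ) A) s))
        (le_sup_of_le_right (le_iSup (fun q : Nat.Primes => Op (q : ℕ) V) s))
      haveI : ((N s).subgroupOf X).Normal :=
        (normal_subgroupOf_iff_le_normalizer hNX).2 (hNn s)
      haveI := Fact.mk s.2
      have h1 := Cores.le_fittingSubgroup (N := (N s).subgroupOf X) inferInstance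
        ((hNp s).of_equiv (subgroupOfEquivOfLe hNX).symm).isNilpotent
      exact (map_subgroupOf_eq_of_le hNX).ge.trans (map_mono h1)
    exact sup_le (iSup_le fun s => le_sup_left.trans (hN s))
      (iSup_le fun s => le_sup_right.trans (hN s))
  have hXn : Group.IsNilpotent X := by
    rw [← Cores.fittingSubgroup_eq_top_iff, eq_top_iff]
    intro x _
    obtain ⟨y, hy, hyx⟩ := hXF x.2
    rwa [← Subtype.ext hyx]
  haveI := hXn
  exact Group.nilpotent_of_mulEquiv (subgroupOfEquivOfLe hle)

end Cfsg.Agent.FG3Fitting
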