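import Cfsg.Agent.FG3Fix.Main

/-!
The bound on fixed points for a chief factor.
-/

set_option autoImplicit false
set_option linter.unusedSectionVars false
set_option linter.style.haveILetI false

namespace Cfsg.Agent.FG3Fitting

open Subgroup

/-- An irreducible elementary abelian module of a solvable group generated by conjugates of an
element of prime order `p > 3`. -/
theorem fixed_card_lt {X : Type*} [Group X] [Finite X] {p : ℕ} [Fact p.Prime] (hp : 5 ≤ p)
    (A W : Subgroup X) (hAW : A ≤ normalizer (W : Set X)) (hA : Group.IsSolvable A)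
    (hWc : IsMulCommutative W) {r : ℕ} [Fact r.Prime] (hWr : ∀ w ∈ W, w ^ r = 1)
    (hirr : ∀ Y : Subgroup X, Y ≤ W → (∀ a ∈ A, ∀ y ∈ Y, a * y * a⁻¹ ∈ Y) → Y = ⊥ ∨ Y = W)
    (x : A) (hxp : (x : X) ^ p = 1) (hgen : normalClosure {x} = ⊤)
    (hx : (x : X) ∉ centralizer (W : Set X)) :
    Nat.card ↥(W ⊓ centralizer ({(x : X)} : Set X)) ^ 2 < Nat.card W := by
  classical
  obtain ⟨d, e, hcardW⟩ := FG3Fix.exists_coords (r := r) W hWc hWr
  letI : CommGroup W :=
    { (inferInstance : Group W) with mul_comm := fun a b => hWc.is_comm.comm a b }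
  let act : A → (W →* W) := fun a =>
    { toFun := fun w => ⟨a * w * (a : X)⁻¹, (mem_normalizer_iff.1 (hAW a.2) w).1 w.2⟩
      map_one' := Subtype.ext (by simp)
      map_mul' := fun v w => Subtype.ext (by simp [mul_assoc]) }
  let σ : A →* Module.End (ZMod r) (Fin d → ZMod r) :=
    { toFun := fun a =>
        (e.toAddMonoidHom.comp ((act a).toAdditive.comp e.symm.toAddMonoidHom)).toZModLinearMap r
      map_one' := LinearMap.ext fun v => by
        show DFunLike.coe e (Additive.ofMul (act 1 (Additive.toMul (e.symm v)))) = v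
        have : act 1 (Additive.toMul (e.symm v)) = Additive.toMul (e.symm v) :=
          Subtype.ext (by simp [act])
        rw [this]; exact e.apply_symm_apply v
      map_mul' := fun a b => LinearMap.ext fun v => by
        show DFunLike.coe e (Additive.ofMul (act (a * b) (Additive.toMul (e.symm v)))) =
          DFunLike.coe e (Additive.ofMul (act a (Additive.toMul (e.symm (DFunLike.coe e (Additive.ofMul
            (act b (Additive.toMul (e.symm v)))))))))
        rw [e.symm_apply_apply]
        have : act (a * b) (Additive.toMul (e.symm v)) = act a (act b (Additive.toMul (e.symm v))) :=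
          Subtype.ext (by simp [act, mul_assoc])
        rw [this]; rfl }
  have hσ : ∀ (a : A) (w : W),
      σ a (DFunLike.coe e (Additive.ofMul w)) = DFunLike.coe e (Additive.ofMul (act a w)) := by
    intro a w
    show DFunLike.coe e (Additive.ofMul (act a (Additive.toMul (e.symm (DFunLike.coe e
      (Additive.ofMul w)))))) = _
    rw [e.symm_apply_apply]; rfl
  have hirrσ : FG3Fix.Irr σ := by
    intro U hU
    let Y : Subgroup X := ((U.toAddSubgroup.comap e.toAddMonoidHom).toSubgroup' : Subgroup W).map W.subtype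
    have hY : ∀ w : W, (w : X) ∈ Y ↔ DFunLike.coe e (Additive.ofMul w) ∈ U := by
      intro w
      constructor
      · rintro ⟨v, hv, hvw⟩
        obtain rfl : v = w := Subtype.ext hvw
        exact hv
      · exact fun h => ⟨w, h, rfl⟩
    have hYA : ∀ a ∈ A, ∀ y ∈ Y, a * y * a⁻¹ ∈ Y := by
      intro a ha y hy
      obtain ⟨v, hv, rfl⟩ := hy
      have := hU ⟨a, ha⟩ _ hv
      change σ ⟨a, ha⟩ (DFunLike.coe e (Additive.ofMul v)) ∈ U at this
      rw [hσ] at this
      exact (hY (act ⟨a, ha⟩ v)).2 this
    rcases hirr Y (map_subtype_le _) hYA with h | h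
    · refine Or.inl ((Submodule.eq_bot_iff _).2 fun u hu => ?_)
      obtain ⟨w, rfl⟩ := e.surjective u
      have h2 := (hY (Additive.toMul w)).2 hu
      rw [h, Subgroup.mem_bot] at h2
      have h3 : Additive.toMul w = 1 := Subtype.ext h2
      rw [show w = 0 from h3, map_zero]
    · refine Or.inr (eq_top_iff.2 fun u _ => ?_)
      obtain ⟨w, rfl⟩ := e.surjective u
      exact (hY (Additive.toMul w)).1 (h.symm ▸ (Additive.toMul w).2)
  have hσx : σ x ≠ 1 := by
    intro h1
    refine hx fun w hw => ?_
    have h2 := hσ x ⟨w, hw⟩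
    rw [h1, Module.End.one_apply] at h2
    have h3 := congrArg (fun v : Additive W => ((Additive.toMul v : W) : X)) (e.injective h2).symm
    exact (mul_inv_eq_iff_eq_mul.1 h3).symm
  set f := σ.toHomUnits.rangeRestrict with hf
  have hfs : Function.Surjective f := MonoidHom.rangeRestrict_surjective _
  haveI : Finite σ.toHomUnits.range := Finite.of_surjective _ hfs
  haveI : Group.IsSolvable σ.toHomUnits.range := Group.isSolvable_of_surjective hfs
  have hfx : orderOf (f x) = p := by
    refine orderOf_eq_prime ?_ fun h1 => hσx ?_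
    · rw [← map_pow, show x ^ p = 1 from Subtype.ext hxp, map_one]
    · exact congrArg (fun z : σ.toHomUnits.range =>
        ((z : (Module.End (ZMod r) (Fin d → ZMod r))ˣ) : Module.End (ZMod r) (Fin d → ZMod r))) h1
  have hfgen : normalClosure {f x} = ⊤ := by
    have h := map_normalClosure {x} f hfs
    rw [hgen, map_top_of_surjective _ hfs, Set.image_singleton] at h
    exact h.symm
  have hb := FG3Fix.fixed_space_bound (k := ZMod r) hp
    ((Units.coeHom _).comp σ.toHomUnits.range.subtype)
    (fun a b hab => Subtype.ext (Units.ext hab))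
    (fun U hU => hirrσ U fun a v hv => hU (f a) v hv) hfx hfgen
  change 2 * Module.finrank (ZMod r) ↥(LinearMap.ker (σ x - 1)) <
    Module.finrank (ZMod r) (Fin d → ZMod r) at hb
  rw [Module.finrank_fin_fun] at hb
  have hC : Nat.card ↥(W ⊓ centralizer ({(x : X)} : Set X)) =
      r ^ Module.finrank (ZMod r) ↥(LinearMap.ker (σ x - 1)) := by
    have h1 : Nat.card ↥(LinearMap.ker (σ x - 1)) =
        r ^ Module.finrank (ZMod r) ↥(LinearMap.ker (σ x - 1)) := by
      rw [Module.natCard_eq_pow_finrank (K := ZMod r), Nat.card_zmod]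
    rw [← h1]
    refine Nat.card_eq_of_bijective
      (fun w => ⟨DFunLike.coe e (Additive.ofMul (⟨w, w.2.1⟩ : W)), ?_⟩) ⟨?_, ?_⟩
    · have hw : act x ⟨w, w.2.1⟩ = ⟨w, w.2.1⟩ :=
        Subtype.ext (mul_inv_eq_iff_eq_mul.2 (mem_centralizer_singleton_iff.1 w.2.2).symm)
      show σ x (DFunLike.coe e (Additive.ofMul (⟨w, w.2.1⟩ : W))) - _ = 0
      rw [hσ, hw, Module.End.one_apply, sub_self]
    · intro a b hab
      exact Subtype.ext (congrArg Subtype.val
        (Additive.ofMul.injective (e.injective (congrArg Subtype.val hab))) :)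
    · rintro ⟨v, hv⟩
      obtain ⟨w, rfl⟩ := e.surjective v
      have h2 := hσ x (Additive.toMul w)
      rw [ofMul_toMul, show σ x (DFunLike.coe e w) = DFunLike.coe e w from sub_eq_zero.1 hv] at h2
      have h3 := congrArg (fun v : Additive W => ((Additive.toMul v : W) : X)) (e.injective h2).symm
      refine ⟨⟨((Additive.toMul w : W) : X), (Additive.toMul w).2,
        mem_centralizer_singleton_iff.2 (mul_inv_eq_iff_eq_mul.1 h3).symm⟩, Subtype.ext rfl⟩
  rw [hC, hcardW, ← pow_mul]
  exact Nat.pow_lt_pow_right (Fact.out : r.Prime).one_lt (by rw [mul_comm]; exact hb)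

end Cfsg.Agent.FG3Fitting
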